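import Groth.Agent.Lefpen.H936.Model

/-!
# The action of `kˣ` on `A[z]/(z² + q)`

`phi hA l : z ↦ l z`, `v_{2i} ↦ l² v_{2i}`, `v_{2i+1} ↦ v_{2i+1}`.
-/

set_option autoImplicit false
universe u v

open IsLocalRing

namespace Groth.Agent.Lefpen.H936.Action

open Model

variable {k : Type u} [Field k] {m : ℕ} {A : Type u} [CommRing A] [IsLocalRing A] [Algebra k A]
  {v : Fin (2 * m) → A} (hA : HensPoly.IsHens k v)

include hA in
theorem v_mem (i : Fin (2 * m)) : v i ∈ maximalIdeal A := by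
  rw [← hA.span]; exact Ideal.subset_span ⟨i, rfl⟩

include hA in
theorem qf_mem : qf m v ∈ maximalIdeal A := Model.qf_mem _ m v (v_mem hA)

include hA in
theorem exists_psi (l : k) : ∃ g : A →ₐ[k] A, ∀ i, g (v i) = algebraMap k A (wt l i.1) * v i := by
  have := hA.hens
  exact hA.exists_hom A _ fun i => Ideal.mul_mem_left _ _ (v_mem hA i)

/-- `v_i ↦ wt l i v_i`. -/
noncomputable def psi (l : k) : A →ₐ[k] A := (exists_psi hA l).choose

theorem psi_v (l : k) (i : Fin (2 * m)) : psi hA l (v i) = algebraMap k A (wt l i.1) * v i :=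
  (exists_psi hA l).choose_spec i

theorem psi_comp (l l' : k) : (psi hA l).comp (psi hA l') = psi hA (l * l') := by
  have := hA.hens
  refine hA.hom_ext A _ _ (fun i => ?_) fun i => ?_
  · rw [AlgHom.comp_apply, psi_v, map_mul, AlgHom.commutes, psi_v]
    exact Ideal.mul_mem_left _ _ (Ideal.mul_mem_left _ _ (v_mem hA i))
  · rw [AlgHom.comp_apply, psi_v, map_mul, AlgHom.commutes, psi_v, psi_v, wt_mul, map_mul]
    ring

theorem psi_eq_id (l : k) (hl : ∀ i : ℕ, wt l i = 1) : psi hA l = AlgHom.id k A := by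
  have := hA.hens
  refine hA.hom_ext A _ _ (fun i => ?_) fun i => ?_
  · rw [psi_v]; exact Ideal.mul_mem_left _ _ (v_mem hA i)
  · rw [psi_v, hl, map_one, one_mul]; rfl

theorem psi_qf (l : k) : psi hA l (qf m v) = algebraMap k A l ^ 2 * qf m v := by
  have h1 : psi hA l (qf m v) = qf m (fun i => psi hA l (v i)) := map_qf (psi hA l).toRingHom m v
  rw [h1, ← qf_scale]
  congr 1
  ext i
  rw [psi_v]
  congr 1
  unfold wt
  split_ifs
  · rw [map_pow]
  · rw [map_one]

theorem phi_aux (l : k) : (algebraMap k (Dbl.Dbl (qf m v)) l * Dbl.rt (qf m v)) ^ 2 +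
    ((algebraMap A (Dbl.Dbl (qf m v))).comp (psi hA l).toRingHom) (qf m v) = 0 := by
  have h1 : ((algebraMap A (Dbl.Dbl (qf m v))).comp (psi hA l).toRingHom) (qf m v) =
      algebraMap A (Dbl.Dbl (qf m v)) (psi hA l (qf m v)) := rfl
  rw [h1, psi_qf, map_mul, map_pow, ← IsScalarTower.algebraMap_apply k A]
  linear_combination (algebraMap k (Dbl.Dbl (qf m v)) l) ^ 2 * Dbl.rt_sq (qf m v)

/-- The action. -/
noncomputable def phi (l : k) : Dbl.Dbl (qf m v) →+* Dbl.Dbl (qf m v) :=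
  Dbl.lift ((algebraMap A _).comp (psi hA l).toRingHom) _ (phi_aux hA l)

theorem phi_of (l : k) (c : A) : phi hA l (algebraMap A _ c) = algebraMap A _ (psi hA l c) :=
  Dbl.lift_of _ _ (phi_aux hA l) c

theorem phi_rt (l : k) : phi hA l (Dbl.rt _) = algebraMap k _ l * Dbl.rt _ := Dbl.lift_rt _ _ (phi_aux hA l)

theorem phi_k (l c : k) : phi hA l (algebraMap k _ c) = algebraMap k _ c := by
  rw [IsScalarTower.algebraMap_apply k A (Dbl.Dbl (qf m v)), phi_of, AlgHom.commutes]

theorem phi_comp (l l' : k) : (phi hA l).comp (phi hA l') = phi hA (l * l') := by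
  refine Dbl.hom_ext (fun c => ?_) ?_
  · rw [RingHom.comp_apply, phi_of, phi_of, phi_of, ← psi_comp]; rfl
  · rw [RingHom.comp_apply, phi_rt, map_mul, phi_k, phi_rt, phi_rt, map_mul]; ring

theorem phi_one : phi hA 1 = RingHom.id _ := by
  refine Dbl.hom_ext (fun c => ?_) ?_
  · rw [phi_of, psi_eq_id hA 1 wt_one]; rfl
  · rw [phi_rt, map_one, one_mul]; rfl

theorem phi_neg_one_of (c : A) : phi hA (-1) (algebraMap A _ c) = algebraMap A _ c := by
  rw [phi_of, psi_eq_id hA (-1) wt_neg_one]; rfl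

theorem phi_neg_one_rt : phi hA (-1) (Dbl.rt _) = - Dbl.rt _ := by
  rw [phi_rt, map_neg, map_one, neg_one_mul]

theorem isLocalHom_phi [IsLocalRing (Dbl.Dbl (qf m v))] (l : kˣ) : IsLocalHom (phi hA l) := ⟨fun b hb => by
  have h1 : (phi hA (l⁻¹ : kˣ)) (phi hA l b) = b := by
    have := DFunLike.congr_fun (phi_comp hA (l⁻¹ : kˣ) l) b
    rw [← Units.val_mul, inv_mul_cancel, Units.val_one, phi_one] at this
    exact this
  rw [← h1]
  exact hb.map _⟩

end Groth.Agent.Lefpen.H936.Action
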