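import Mathlib.RingTheory.AdjoinRoot
import Mathlib.RingTheory.LocalRing.ResidueField.Basic
import Mathlib.RingTheory.Ideal.GoingUp
import Mathlib.FieldTheory.IsAlgClosed.Basic
import Groth.Agent.S0505

/-!
# The double covering `z² + a = 0` of a local ring

`Dbl a = A[z]/(z² + a)`, `a ∈ 𝔪_A`: a local ring, finite over `A`, henselian if `A` is; its maximal ideal; its
homomorphisms.
-/

set_option autoImplicit false
universe u v

open Polynomial IsLocalRing

namespace Groth.Agent.Lefpen.H936.Dbl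

variable {A : Type u} [CommRing A]

/-- `z² + a`. -/
noncomputable def pol (a : A) : A[X] := X ^ 2 + C a

theorem monic_pol (a : A) : (pol a).Monic := by
  unfold pol
  exact monic_X_pow_add_C a two_ne_zero

/-- `A[z]/(z² + a)`. -/
abbrev Dbl (a : A) : Type u := AdjoinRoot (pol a)

/-- The class of `z`. -/
noncomputable def rt (a : A) : Dbl a := AdjoinRoot.root (pol a)

theorem rt_sq (a : A) : rt a ^ 2 + algebraMap A (Dbl a) a = 0 := by
  have h := AdjoinRoot.eval₂_root (pol a)
  rw [pol, eval₂_add, eval₂_X_pow, eval₂_C] at h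
  exact h

theorem exists_rep (a : A) (b : Dbl a) : ∃ (c : A) (b' : Dbl a), b = algebraMap A _ c + rt a * b' := by
  induction b using AdjoinRoot.induction_on with
  | ih p =>
    refine ⟨p.coeff 0, AdjoinRoot.mk _ p.divX, ?_⟩
    have h := congrArg (AdjoinRoot.mk (pol a)) (divX_mul_X_add p)
    rw [map_add, map_mul, AdjoinRoot.mk_X, AdjoinRoot.mk_C] at h
    rw [← h, mul_comm, add_comm]
    rfl

instance finite_dbl (a : A) : Module.Finite A (Dbl a) := (monic_pol a).finite_adjoinRoot

instance free_dbl (a : A) : Module.Free A (Dbl a) := (monic_pol a).free_adjoinRoot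

/-- Ring homomorphisms out of `Dbl a`. -/
noncomputable def lift {a : A} {S : Type v} [CommRing S] (g : A →+* S) (z : S) (h : z ^ 2 + g a = 0) :
    Dbl a →+* S :=
  AdjoinRoot.lift g z (by rw [pol, eval₂_add, eval₂_X_pow, eval₂_C]; exact h)

section lift

variable {a : A} {S : Type v} [CommRing S] (g : A →+* S) (z : S) (h : z ^ 2 + g a = 0)

theorem lift_rt : lift g z h (rt a) = z := AdjoinRoot.lift_root _

theorem lift_of (c : A) : lift g z h (algebraMap A (Dbl a) c) = g c := AdjoinRoot.lift_of _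

theorem hom_ext {f₁ f₂ : Dbl a →+* S} (h1 : ∀ c : A, f₁ (algebraMap A _ c) = f₂ (algebraMap A _ c))
    (h2 : f₁ (rt a) = f₂ (rt a)) : f₁ = f₂ :=
  AdjoinRoot.ringHom_ext (RingHom.ext h1) h2

/-- Two homomorphisms to a domain which agree on `A` agree up to the sign of `z`. -/
theorem eq_or_eq_neg [IsDomain S] (f₁ f₂ : Dbl a →+* S)
    (h1 : ∀ c : A, f₁ (algebraMap A _ c) = f₂ (algebraMap A _ c)) :
    f₁ (rt a) = f₂ (rt a) ∨ f₁ (rt a) = - f₂ (rt a) := by
  have e1 := congrArg f₁ (rt_sq a)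
  have e2 := congrArg f₂ (rt_sq a)
  rw [map_add, map_pow, map_zero] at e1 e2
  rw [h1] at e1
  have e3 : (f₁ (rt a)) ^ 2 = (f₂ (rt a)) ^ 2 := by
    rw [← sub_eq_zero]
    linear_combination e1 - e2
  exact sq_eq_sq_iff_eq_or_eq_neg.1 e3

end lift

section Local

variable [IsLocalRing A] {a : A} (ha : a ∈ maximalIdeal A)

/-- The residue map. -/
noncomputable def eps : Dbl a →+* ResidueField A :=
  lift (residue A) 0 (by rw [(residue_eq_zero_iff a).2 ha]; ring)

theorem eps_of (c : A) : eps ha (algebraMap A _ c) = residue A c := lift_of _ _ _ c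

theorem eps_rt : eps ha (rt a) = 0 := lift_rt _ _ _

theorem mem_of_isMaximal (M : Ideal (Dbl a)) [M.IsMaximal] (b : Dbl a) (hb : eps ha b = 0) : b ∈ M := by
  have h1 : (M.comap (algebraMap A (Dbl a))).IsMaximal := Ideal.isMaximal_comap_of_isIntegral_of_isMaximal M
  have h2 : M.comap (algebraMap A (Dbl a)) = maximalIdeal A := IsLocalRing.eq_maximalIdeal h1
  have h3 : ∀ c ∈ maximalIdeal A, algebraMap A (Dbl a) c ∈ M := fun c hc => by
    rw [← h2] at hc; exact hc
  have h4 : rt a ∈ M := by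
    have h5 : rt a ^ 2 ∈ M := by
      have : rt a ^ 2 = - algebraMap A _ a := by linear_combination rt_sq a
      rw [this]
      exact M.neg_mem (h3 a ha)
    exact (Ideal.IsMaximal.isPrime ‹_›).mem_of_pow_mem 2 h5
  obtain ⟨c, b', rfl⟩ := exists_rep a b
  rw [map_add, map_mul, eps_rt, zero_mul, add_zero, eps_of, residue_eq_zero_iff] at hb
  exact M.add_mem (h3 c hb) (M.mul_mem_right _ h4)

include ha in
theorem isLocalRing : IsLocalRing (Dbl a) := by
  have hs : Function.Surjective (eps ha) := fun y => by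
    obtain ⟨c, rfl⟩ := residue_surjective y
    exact ⟨algebraMap A _ c, eps_of ha c⟩
  have hmax : (RingHom.ker (eps ha)).IsMaximal := RingHom.ker_isMaximal_of_surjective _ hs
  refine IsLocalRing.of_unique_max_ideal ⟨RingHom.ker (eps ha), hmax, fun M hM => ?_⟩
  have hM' : M.IsMaximal := hM
  exact (hmax.eq_of_le hM'.ne_top fun b hb => mem_of_isMaximal ha M b hb).symm

theorem mem_maximalIdeal_iff [IsLocalRing (Dbl a)] (b : Dbl a) :
    b ∈ maximalIdeal (Dbl a) ↔ eps ha b = 0 := by
  have hs : Function.Surjective (eps ha) := fun y => by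
    obtain ⟨c, rfl⟩ := residue_surjective y
    exact ⟨algebraMap A _ c, eps_of ha c⟩
  have hmax : (RingHom.ker (eps ha)).IsMaximal := RingHom.ker_isMaximal_of_surjective _ hs
  rw [← IsLocalRing.eq_maximalIdeal hmax]
  rfl

include ha in
theorem of_mem_maximalIdeal_iff [IsLocalRing (Dbl a)] (c : A) :
    algebraMap A (Dbl a) c ∈ maximalIdeal (Dbl a) ↔ c ∈ maximalIdeal A := by
  rw [mem_maximalIdeal_iff ha, eps_of, residue_eq_zero_iff]

include ha in
theorem rt_mem [IsLocalRing (Dbl a)] : rt a ∈ maximalIdeal (Dbl a) := by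
  rw [mem_maximalIdeal_iff ha, eps_rt]

include ha in
theorem isLocalHom_algebraMap [IsLocalRing (Dbl a)] : IsLocalHom (algebraMap A (Dbl a)) := ⟨fun c hc => by
  by_contra hcon
  have h1 : c ∈ maximalIdeal A := (mem_maximalIdeal _).2 hcon
  exact (mem_maximalIdeal _).1 ((of_mem_maximalIdeal_iff ha c).2 h1) hc⟩

include ha in
theorem henselian (hA : HenselianLocalRing A) : HenselianLocalRing (Dbl a) := by
  have := isLocalRing ha
  exact Groth.Agent.S0505.result A (Dbl a)

include ha in
/-- The maximal ideal is generated by `z` and generators of `𝔪_A`. -/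
theorem span_eq [IsLocalRing (Dbl a)] {ι : Type*} (x : ι → A) (hx : Ideal.span (Set.range x) = maximalIdeal A)
    (y : Set (Dbl a)) (h1 : ∀ i, algebraMap A _ (x i) ∈ Ideal.span y) (h2 : rt a ∈ Ideal.span y)
    (h3 : y ⊆ maximalIdeal (Dbl a)) : Ideal.span y = maximalIdeal (Dbl a) := by
  refine le_antisymm (Ideal.span_le.2 h3) fun b hb => ?_
  obtain ⟨c, b', rfl⟩ := exists_rep a b
  rw [mem_maximalIdeal_iff ha, map_add, map_mul, eps_rt, zero_mul, add_zero, eps_of,
    residue_eq_zero_iff, ← hx] at hb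
  refine Ideal.add_mem _ ?_ (Ideal.mul_mem_right _ _ h2)
  have h4 : Ideal.span (Set.range x) ≤ (Ideal.span y).comap (algebraMap A (Dbl a)) := by
    rw [Ideal.span_le]
    rintro _ ⟨i, rfl⟩
    exact h1 i
  exact h4 hb

include ha in
theorem res {k : Type*} [CommRing k] [Algebra k A] [IsLocalRing (Dbl a)]
    (hres : ∀ c : A, ∃ s : k, c - algebraMap k A s ∈ maximalIdeal A) (b : Dbl a) :
    ∃ s : k, b - algebraMap k (Dbl a) s ∈ maximalIdeal (Dbl a) := by
  obtain ⟨c, b', rfl⟩ := exists_rep a b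
  obtain ⟨s, hs⟩ := hres c
  refine ⟨s, ?_⟩
  rw [IsScalarTower.algebraMap_apply k A (Dbl a), add_sub_right_comm, ← map_sub]
  exact Ideal.add_mem _ ((of_mem_maximalIdeal_iff ha _).2 hs) (Ideal.mul_mem_right _ _ (rt_mem ha))

end Local

end Groth.Agent.Lefpen.H936.Dbl
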