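import Groth.Agent.Vancyc.H689.Final
import Groth.Agent.Vancyc.H689.Coord
import Mathlib.RingTheory.MvPolynomial.Ideal

/-!
# The henselization of `k[v_1, …, v_N]` at the origin

`IsHens k A v`: the properties of this ring used below (noetherian henselian local, residue field `k`, `v` generates the
maximal ideal, universal property), and `isHens` : the henselization has them.
-/

set_option autoImplicit false
universe u v

open IsLocalRing

namespace Groth.Agent.Lefpen.H936.HensPoly

/-- `A` is a henselization of `k[v_1, …, v_N]` at the origin. -/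
structure IsHens (k : Type u) [Field k] {N : ℕ} {A : Type u} [CommRing A] [IsLocalRing A] [Algebra k A]
    (v : Fin N → A) : Prop where
  hens : HenselianLocalRing A
  noeth : IsNoetherianRing A
  res : ∀ a : A, ∃ c : k, a - algebraMap k A c ∈ maximalIdeal A
  span : Ideal.span (Set.range v) = maximalIdeal A
  exists_hom : ∀ (S : Type u) [CommRing S] [HenselianLocalRing S] [Algebra k S] (y : Fin N → S),
    (∀ i, y i ∈ maximalIdeal S) → ∃ g : A →ₐ[k] S, ∀ i, g (v i) = y i
  hom_ext : ∀ (S : Type u) [CommRing S] [HenselianLocalRing S] [Algebra k S] (g g' : A →ₐ[k] S),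
    (∀ i, g (v i) ∈ maximalIdeal S) → (∀ i, g (v i) = g' (v i)) → g = g'

section Origin

variable (k : Type u) [Field k] (N : ℕ)

/-- The origin ideal. -/
noncomputable def q : Ideal (MvPolynomial (Fin N) k) := Ideal.span (Set.range MvPolynomial.X)

theorem q_eq_ker : q k N = RingHom.ker (MvPolynomial.constantCoeff (R := k) (σ := Fin N)) := by
  refine le_antisymm ?_ fun p hp => ?_
  · rw [q, Ideal.span_le]
    rintro _ ⟨i, rfl⟩
    change MvPolynomial.constantCoeff _ = 0
    simp
  · rw [q, ← Set.image_univ, MvPolynomial.mem_ideal_span_X_image]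
    intro m hm
    by_contra hcon
    push Not at hcon
    have h1 : m = 0 := by
      ext i
      exact hcon i (Set.mem_univ i)
    rw [MvPolynomial.mem_support_iff, h1] at hm
    exact hm hp

instance isMaximal_q : (q k N).IsMaximal := by
  rw [q_eq_ker]
  exact RingHom.ker_isMaximal_of_surjective _ (fun c => ⟨MvPolynomial.C c, by simp⟩)

theorem exists_const (r : MvPolynomial (Fin N) k) : ∃ c : k, r - algebraMap k _ c ∈ q k N := by
  refine ⟨MvPolynomial.constantCoeff r, ?_⟩
  rw [q_eq_ker, RingHom.mem_ker, map_sub, MvPolynomial.algebraMap_eq, MvPolynomial.constantCoeff_C, sub_self]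

end Origin

section Main

variable (k : Type u) [Field k] (N : ℕ) (L : Type u) [CommRing L] [IsLocalRing L]
  [Algebra (MvPolynomial (Fin N) k) L] [IsLocalization.AtPrime L (q k N)] [Algebra k L]
  [IsScalarTower k (MvPolynomial (Fin N) k) L]
  (A : Type u) [CommRing A] [IsLocalRing A] [Algebra L A] [IsLocalHom (algebraMap L A)]
  [Hensel.IsHenselization L A] [Algebra k A] [IsScalarTower k L A]

include k N in
omit [IsLocalRing L] [Algebra k L] [IsScalarTower k (MvPolynomial (Fin N) k) L] in
theorem isNoetherianRing_loc : IsNoetherianRing L :=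
  IsLocalization.isNoetherianRing (q k N).primeCompl L inferInstance

theorem isHens : IsHens k (A := A) (fun i : Fin N => algebraMap L A (algebraMap (MvPolynomial (Fin N) k) L
    (MvPolynomial.X i))) where
  hens := Hensel.IsHenselization.henselian L
  noeth := (Groth.Agent.S0511.result L A).1 (isNoetherianRing_loc k N L)
  res := Vancyc.H689.Iso.hres_hens (O := L)
    (Vancyc.H689.Cone.hres_generic (q k N) (exists_const k N) L)
  span := by
    rw [← Groth.Agent.S0507.result L A, ← IsLocalization.AtPrime.map_eq_maximalIdeal (q k N) L, q,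
      Ideal.map_span, Ideal.map_span, ← Set.range_comp, ← Set.range_comp]
    rfl
  exists_hom := by
    intro S _ _ _ y hy
    obtain ⟨ψ, h1, h2⟩ := Vancyc.H689.Cone.exists_hom_generic (q k N) (exists_const k N) L
      (MvPolynomial.aeval y) (by
        intro z hz
        have h3 : q k N ≤ (maximalIdeal S).comap (MvPolynomial.aeval (R := k) y).toRingHom := by
          rw [q, Ideal.span_le]
          rintro _ ⟨i, rfl⟩
          change MvPolynomial.aeval y (MvPolynomial.X i) ∈ maximalIdeal S
          rw [MvPolynomial.aeval_X]
          exact hy i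
        exact h3 hz)
    obtain ⟨g₀, hg₀, -⟩ := Hensel.IsHenselization.universal (R := L) (S := A) S ψ.toRingHom h1
    have hg₀' : ∀ z : L, g₀ (algebraMap L A z) = ψ z := fun z => DFunLike.congr_fun hg₀ z
    refine ⟨{ toRingHom := g₀, commutes' := fun c => ?_ }, fun i => ?_⟩
    · change g₀ (algebraMap k A c) = _
      rw [IsScalarTower.algebraMap_apply k L A, hg₀', AlgHom.commutes]
    · change g₀ (algebraMap L A _) = _
      rw [hg₀', h2, MvPolynomial.aeval_X]
  hom_ext := by
    intro S _ _ _ g g' hgm h
    have e1 : ∀ r : MvPolynomial (Fin N) k, g (algebraMap L A (algebraMap _ L r)) =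
        g' (algebraMap L A (algebraMap _ L r)) := by
      intro r
      have e : (g.toRingHom.comp ((algebraMap L A).comp (algebraMap (MvPolynomial (Fin N) k) L))) =
          (g'.toRingHom.comp ((algebraMap L A).comp (algebraMap (MvPolynomial (Fin N) k) L))) := by
        apply MvPolynomial.ringHom_ext
        · intro c
          change g (algebraMap L A (algebraMap _ L (algebraMap k _ c))) =
            g' (algebraMap L A (algebraMap _ L (algebraMap k _ c)))
          rw [← IsScalarTower.algebraMap_apply k _ L, ← IsScalarTower.algebraMap_apply k L A,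
            AlgHom.commutes, AlgHom.commutes]
        · exact h
      exact DFunLike.congr_fun e r
    have e2 : g.toRingHom.comp (algebraMap L A) = g'.toRingHom.comp (algebraMap L A) := by
      apply IsLocalization.ringHom_ext (q k N).primeCompl
      exact RingHom.ext e1
    have hloc : IsLocalHom (g.toRingHom.comp (algebraMap L A)) := by
      have h1 : (maximalIdeal L).map (g.toRingHom.comp (algebraMap L A)) ≤ maximalIdeal S := by
        rw [← IsLocalization.AtPrime.map_eq_maximalIdeal (q k N) L, q, Ideal.map_span, Ideal.map_span,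
          Ideal.span_le]
        rintro _ ⟨_, ⟨_, ⟨i, rfl⟩, rfl⟩, rfl⟩
        exact hgm i
      exact ((IsLocalRing.local_hom_TFAE _).out 2 0).1 h1
    obtain ⟨g₀, -, hu⟩ := Hensel.IsHenselization.universal (R := L) (S := A) S _ hloc
    have e3 : g.toRingHom = g'.toRingHom := (hu _ rfl).trans (hu _ e2.symm).symm
    ext a
    exact DFunLike.congr_fun e3 a

end Main

end Groth.Agent.Lefpen.H936.HensPoly
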