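import Groth.Agent.Lefpen.H936.HensPoly
import Groth.Agent.Lefpen.H936.Dbl

/-!
# The henselian local ring of an ordinary quadratic singularity of even dimension

`nonempty_equiv`: `Oh ≃ₐ[k] A[z]/(z² + q)`, `A` the henselization of `k[v_1, …, v_{2m}]` at the origin,
`q = v_1 v_2 + ⋯ + v_{2m-1} v_{2m}`.
-/

set_option autoImplicit false
universe u v

open IsLocalRing

namespace Groth.Agent.Lefpen.H936.Model

open Vancyc.H689 VanCyc

section Tab

variable {R : Type u} [CommRing R]

/-- The quadratic form `v_0 v_1 + v_2 v_3 + ⋯`. -/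
noncomputable def qf (m : ℕ) (v : Fin (2 * m) → R) : R := quadEval (QuadTab.stdTab R (2 * m)) v

theorem qf_succ (m : ℕ) (v : Fin (2 * (m + 1)) → R) :
    qf (m + 1) v = v ⟨0, by omega⟩ * v ⟨1, by omega⟩ + qf m (fun i => v ⟨i.1 + 2, by omega⟩) :=
  QuadTab.quadEval_stdTab_add_two (2 * m) v

theorem qf_zero (v : Fin (2 * 0) → R) : qf 0 v = 0 := QuadTab.quadEval_stdTab_zero v

/-- The standard form in an odd number of variables. -/
theorem quadEval_odd (m : ℕ) (y : Fin (2 * m + 1) → R) :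
    quadEval (QuadTab.stdTab R (2 * m + 1)) y = y (Fin.last _) ^ 2 + qf m (fun i => y i.castSucc) := by
  induction m with
  | zero =>
    rw [qf_zero, add_zero, pow_two]
    exact QuadTab.quadEval_stdTab_one y
  | succ m ih =>
    have h1 := QuadTab.quadEval_stdTab_add_two (2 * m + 1) y
    have h2 := ih (fun i => y i.succ.succ)
    refine h1.trans ?_
    rw [h2, qf_succ]
    have e1 : y (Fin.last (2 * m)).succ.succ = y (Fin.last (2 * (m + 1))) := rfl
    rw [e1]
    have e2 : (y 0 : R) = y (Fin.castSucc ⟨0, by omega⟩) := rfl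
    have e3 : (y 1 : R) = y (Fin.castSucc ⟨1, by omega⟩) := rfl
    rw [e2, e3]
    have e4 : qf m (fun i => y i.castSucc.succ.succ) =
      qf m (fun i => y (Fin.castSucc (⟨i.1 + 2, by omega⟩ : Fin (2 * (m + 1))))) := rfl
    rw [e4]
    ring

theorem map_qf {S : Type v} [CommRing S] (φ : R →+* S) (m : ℕ) (v : Fin (2 * m) → R) :
    φ (qf m v) = qf m (fun i => φ (v i)) := by
  induction m with
  | zero => rw [qf_zero, qf_zero, map_zero]
  | succ m ih => rw [qf_succ, qf_succ, map_add, map_mul, ih]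

/-- The weights of the action. -/
noncomputable def wt {k : Type*} [Monoid k] (l : k) (i : ℕ) : k := if i % 2 = 0 then l ^ 2 else 1

theorem wt_mul {k : Type*} [CommMonoid k] (l l' : k) (i : ℕ) : wt (l * l') i = wt l i * wt l' i := by
  unfold wt
  split_ifs
  · exact mul_pow _ _ _
  · rw [mul_one]

theorem wt_one {k : Type*} [Monoid k] (i : ℕ) : wt (1 : k) i = 1 := by
  unfold wt; split_ifs <;> simp

theorem wt_neg_one {k : Type*} [Ring k] (i : ℕ) : wt (-1 : k) i = 1 := by
  unfold wt; split_ifs <;> simp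

theorem qf_scale (l : R) (m : ℕ) (v : Fin (2 * m) → R) :
    qf m (fun i => wt l i.1 * v i) = l ^ 2 * qf m v := by
  induction m with
  | zero => rw [qf_zero, qf_zero, mul_zero]
  | succ m ih =>
    rw [qf_succ, qf_succ, mul_add (l ^ 2), ← ih]
    have e : ∀ i : ℕ, wt l (i + 2) = wt l i := fun i => by
      unfold wt
      rw [Nat.add_mod_right]
    simp only [e]
    have e0 : wt l 0 = l ^ 2 := by simp [wt]
    have e1 : wt l 1 = 1 := by simp [wt]
    rw [e0, e1]
    ring

theorem qf_mem (I : Ideal R) (m : ℕ) (v : Fin (2 * m) → R) (hv : ∀ i, v i ∈ I) : qf m v ∈ I := by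
  induction m with
  | zero => rw [qf_zero]; exact I.zero_mem
  | succ m ih => rw [qf_succ]; exact I.add_mem (I.mul_mem_left _ (hv _)) (ih _ fun i => hv _)

end Tab

section Equiv

variable {k : Type u} [Field k] [IsAlgClosed k]

theorem nonempty_equiv (m : ℕ) {A : Type u} [CommRing A] [IsLocalRing A] [Algebra k A] {v : Fin (2 * m) → A}
    (hA : HensPoly.IsHens k v)
    (O : Type u) [CommRing O] [IsLocalRing O] [Algebra k O] [Algebra.EssFiniteType k O]
    (hk : ∀ y : O, ∃ c : k, y - algebraMap k O c ∈ IsLocalRing.maximalIdeal O)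
    (hq : VanCyc.IsOrdQuadSing k O (2 * m))
    (Oh : Type u) [CommRing Oh] [IsLocalRing Oh] [Algebra O Oh] [IsLocalHom (algebraMap O Oh)]
    [Hensel.IsHenselization O Oh] [Algebra k Oh] [IsScalarTower k O Oh] :
    Nonempty (Dbl.Dbl (qf m v) ≃ₐ[k] Oh) := by
  obtain ⟨f, hf, ⟨e⟩⟩ := hq
  have hnO : IsNoetherianRing O := Algebra.EssFiniteType.isNoetherianRing k O
  have hT : ∀ j, TruncPS.HasTrunc f Oh j := fun j =>
    TruncPS.hasTrunc_henselization f Oh j (TruncPS.hasTrunc_of_completion f e j)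
  have hnOh : IsNoetherianRing Oh := (Groth.Agent.S0511.result O Oh).mp hnO
  have hensOh : HenselianLocalRing Oh := Hensel.IsHenselization.henselian O
  have hresOh : ∀ y : Oh, ∃ c : k, y - algebraMap k Oh c ∈ IsLocalRing.maximalIdeal Oh :=
    Iso.hres_hens hk
  obtain ⟨y, hy, hQy⟩ := Coord.exists_coords hensOh hresOh f hf (hT 3)
  have hym : ∀ i, y i ∈ maximalIdeal Oh := fun i => by
    rw [← hy]; exact Ideal.subset_span ⟨i, rfl⟩
  have hord := QuadTab.quadOrd_stdTab k (2 * m + 1)
  have hQy' : MvPolynomial.aeval y (quadPoly (QuadTab.stdTab k (2 * m + 1))) = 0 := by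
    rw [PSPow.aeval_quadPoly, ← hQy]
    congr 1
    ext i j
    exact QuadTab.map_stdTab (algebraMap k Oh) (2 * m + 1) i j
  have hQy'' : y (Fin.last _) ^ 2 + qf m (fun i => y i.castSucc) = 0 := by
    rw [← quadEval_odd, hQy]
  -- the map
  obtain ⟨g₁, hg₁⟩ := hA.exists_hom Oh (fun i => y i.castSucc) (fun i => hym _)
  have hqm : qf m v ∈ maximalIdeal A := qf_mem _ m v fun i => by
    rw [← hA.span]; exact Ideal.subset_span ⟨i, rfl⟩
  have hloc := Dbl.isLocalRing hqm
  have hnA := hA.noeth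
  have hnB : IsNoetherianRing (Dbl.Dbl (qf m v)) := inferInstance
  have hensB : HenselianLocalRing (Dbl.Dbl (qf m v)) := Dbl.henselian hqm hA.hens
  have hresB : ∀ b : Dbl.Dbl (qf m v), ∃ c : k, b - algebraMap k _ c ∈ maximalIdeal _ :=
    Dbl.res hqm hA.res
  have hsep : IsSepClosed (ResidueField (Dbl.Dbl (qf m v))) := Final.isSepClosed_residueField hresB
  have hz : y (Fin.last _) ^ 2 + g₁.toRingHom (qf m v) = 0 := by
    have h1 : g₁.toRingHom (qf m v) = qf m (fun i => y i.castSucc) := by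
      rw [map_qf]
      congr 1
      exact funext hg₁
    rw [h1]
    exact hQy''
  let g₀ : Dbl.Dbl (qf m v) →+* Oh := Dbl.lift g₁.toRingHom (y (Fin.last _)) hz
  let g : Dbl.Dbl (qf m v) →ₐ[k] Oh :=
    { toRingHom := g₀
      commutes' := fun c => by
        change g₀ (algebraMap k (Dbl.Dbl (qf m v)) c) = _
        rw [IsScalarTower.algebraMap_apply k A (Dbl.Dbl (qf m v))]
        exact (Dbl.lift_of _ _ hz _).trans (g₁.commutes c) }
  -- coordinates of the model
  let x : Fin (2 * m + 1) → Dbl.Dbl (qf m v) :=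
    Fin.snoc (α := fun _ => Dbl.Dbl (qf m v)) (fun i => algebraMap A _ (v i)) (Dbl.rt (qf m v))
  have hxl : x (Fin.last _) = Dbl.rt (qf m v) := Fin.snoc_last _ _
  have hxc : ∀ i : Fin (2 * m), x i.castSucc = algebraMap A _ (v i) := fun i => Fin.snoc_castSucc _ _ i
  have hgx : ∀ i, g (x i) = y i := by
    intro i
    refine Fin.lastCases ?_ (fun i => ?_) i
    · rw [hxl]; exact Dbl.lift_rt _ _ hz
    · rw [hxc]; exact (Dbl.lift_of _ _ hz _).trans (hg₁ i)
  have hxm : Set.range x ⊆ maximalIdeal (Dbl.Dbl (qf m v)) := by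
    rintro _ ⟨i, rfl⟩
    refine Fin.lastCases ?_ (fun i => ?_) i
    · rw [hxl]; exact Dbl.rt_mem hqm
    · rw [hxc]
      refine (Dbl.of_mem_maximalIdeal_iff hqm _).2 ?_
      rw [← hA.span]; exact Ideal.subset_span ⟨i, rfl⟩
  have hx : Ideal.span (Set.range x) = maximalIdeal (Dbl.Dbl (qf m v)) := by
    refine Dbl.span_eq hqm v hA.span _ (fun i => ?_) ?_ hxm
    · rw [← hxc]; exact Ideal.subset_span ⟨_, rfl⟩
    · rw [← hxl]; exact Ideal.subset_span ⟨_, rfl⟩
  have hQx : MvPolynomial.aeval x (quadPoly (QuadTab.stdTab k (2 * m + 1))) = 0 := by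
    rw [PSPow.aeval_quadPoly]
    have e1 : (fun i j => algebraMap k (Dbl.Dbl (qf m v)) (QuadTab.stdTab k (2 * m + 1) i j)) =
        QuadTab.stdTab (Dbl.Dbl (qf m v)) (2 * m + 1) := by
      ext i j
      exact QuadTab.map_stdTab (algebraMap k _) (2 * m + 1) i j
    rw [e1, quadEval_odd, hxl]
    have e2 : (fun i => x (Fin.castSucc i)) = fun i => algebraMap A _ (v i) := funext hxc
    rw [e2, ← map_qf]
    exact Dbl.rt_sq _
  have hgm : (maximalIdeal (Dbl.Dbl (qf m v))).map g.toRingHom = maximalIdeal Oh := by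
    rw [← hx, Ideal.map_span, ← Set.range_comp, ← hy]
    congr 1
    ext w
    constructor
    · rintro ⟨i, rfl⟩; exact ⟨i, (hgx i).symm⟩
    · rintro ⟨i, rfl⟩; exact ⟨i, hgx i⟩
  have hgloc : IsLocalHom g.toRingHom := ⟨fun c hc => by
    by_contra hcon
    have h1 : g.toRingHom c ∈ maximalIdeal Oh := by
      rw [← hgm]
      exact Ideal.mem_map_of_mem _ ((mem_maximalIdeal _).mpr hcon)
    exact (mem_maximalIdeal _).mp h1 hc⟩
  have hinj : Function.Injective g := by
    refine Iso.injective_of_relations hresB x hx (quadPoly (QuadTab.stdTab k (2 * m + 1)))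
      hQx g hgm.le fun j hj p hp => ?_
    have e : (fun i => g (x i)) = y := funext hgx
    rw [e] at hp
    exact KerClaim.mem_of_aeval_mem hj (Nat.succ_pos _) f hf.1 (hT j) y hy hord hQy' p hp
  have hsurj : Function.Surjective g := by
    let _ : Algebra (Dbl.Dbl (qf m v)) Oh := g.toRingHom.toAlgebra
    have _ : IsScalarTower k (Dbl.Dbl (qf m v)) Oh :=
      IsScalarTower.of_algebraMap_eq fun c => (g.commutes c).symm
    have _ : IsLocalHom (algebraMap (Dbl.Dbl (qf m v)) Oh) := hgloc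
    refine Iso.surjective_of_span (k := k) (O := O) hk x ?_
    rw [← hy]
    congr 2
    exact funext hgx
  exact ⟨AlgEquiv.ofBijective g ⟨hinj, hsurj⟩⟩

end Equiv

end Groth.Agent.Lefpen.H936.Model
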